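import Groth.Prelude.Def_PCone

/-!
# The morphism `G(φ) → Proj 𝒜` of a graded homomorphism `φ : 𝒜 → ℬ`

`PCone.dom φ` is covered by the charts `PCone.chart φ hf hd` (`cover φ`); the morphisms
`Spec ℬ_(φ f) → Spec 𝒜_(f) ⊆ Proj 𝒜` glue to `toProj φ : G(φ) ⟶ Proj 𝒜`.
-/

set_option autoImplicit false
universe u
open CategoryTheory CategoryTheory.Limits AlgebraicGeometry TopologicalSpace

noncomputable section

namespace Groth.Agent.Ega2.H300.PConeMap

variable {R A B : Type u} [CommRing R] [CommRing A] [Algebra R A] {𝒜 : ℕ → Submodule R A} [GradedAlgebra 𝒜]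
  [CommRing B] [Algebra R B] {ℬ : ℕ → Submodule R B} [GradedAlgebra ℬ] (φ : 𝒜 →+*ᵍ ℬ)

section

omit [GradedAlgebra 𝒜]

/-- The chart, followed by the inclusion of `G(φ)`, is `Proj.awayι`. -/
@[reassoc]
theorem chart_ι {d : ℕ} {f : A} (hf : f ∈ 𝒜 d) (hd : 0 < d) :
    PCone.chart φ hf hd ≫ (PCone.dom φ).ι = Proj.awayι ℬ (φ f) (φ.2 hf) hd :=
  IsOpenImmersion.lift_fac _ _ _

instance isOpenImmersion_chart {d : ℕ} {f : A} (hf : f ∈ 𝒜 d) (hd : 0 < d) :
    IsOpenImmersion (PCone.chart φ hf hd) := by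
  have : IsOpenImmersion (PCone.chart φ hf hd ≫ (PCone.dom φ).ι) := by
    rw [chart_ι]; infer_instance
  exact IsOpenImmersion.of_comp _ (PCone.dom φ).ι

/-- Standard charts cover `G(φ)`. -/
theorem exists_chart (x : (PCone.dom φ : Scheme.{u})) :
    ∃ (d : ℕ) (f : A) (hd : 0 < d) (hf : f ∈ 𝒜 d), x ∈ Set.range (PCone.chart φ hf hd).base := by
  have hx : (PCone.dom φ).ι.base x ∈ PCone.dom φ := by
    have : (PCone.dom φ).ι.base x ∈ Set.range (PCone.dom φ).ι.base := ⟨x, rfl⟩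
    rwa [Scheme.Opens.range_ι] at this
  obtain ⟨⟨f, d, hd, hf⟩, hfx⟩ := Opens.mem_iSup.mp hx
  refine ⟨d, f, hd, hf, ?_⟩
  rw [← Proj.opensRange_awayι ℬ (φ f) (φ.2 hf) hd] at hfx
  obtain ⟨y, hy⟩ := hfx
  refine ⟨y, (PCone.dom φ).ι.isOpenEmbedding.injective ?_⟩
  rw [← hy, ← chart_ι φ hf hd]
  rfl

/-- The image of the chart in `Proj ℬ` is `D_+(φ f)`. -/
theorem image_opensRange_chart {d : ℕ} {f : A} (hf : f ∈ 𝒜 d) (hd : 0 < d) :
    (PCone.dom φ).ι ''ᵁ (PCone.chart φ hf hd).opensRange = Proj.basicOpen ℬ (φ f) := by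
  rw [← Proj.opensRange_awayι ℬ (φ f) (φ.2 hf) hd, ← Scheme.Hom.opensRange_comp]
  simp only [chart_ι]

/-- The range of the chart is the preimage of `D_+(φ f)`. -/
theorem opensRange_chart {d : ℕ} {f : A} (hf : f ∈ 𝒜 d) (hd : 0 < d) :
    (PCone.chart φ hf hd).opensRange = (PCone.dom φ).ι ⁻¹ᵁ Proj.basicOpen ℬ (φ f) := by
  rw [← image_opensRange_chart φ hf hd, Scheme.Hom.preimage_image_eq]

/-- The standard open cover of `G(φ)`. -/
def cover : (PCone.dom φ : Scheme.{u}).OpenCover where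
  I₀ := Σ d : {d : ℕ // 0 < d}, 𝒜 d.1
  X f := Spec (CommRingCat.of (HomogeneousLocalization.Away ℬ (φ (f.2 : A))))
  f f := PCone.chart φ f.2.2 f.1.2
  mem₀ := by
    rw [Scheme.presieve₀_mem_precoverage_iff]
    refine ⟨fun x ↦ ?_, fun f ↦ isOpenImmersion_chart φ f.2.2 f.1.2⟩
    obtain ⟨d, f, hd, hf, hx⟩ := exists_chart φ x
    exact ⟨⟨⟨d, hd⟩, ⟨f, hf⟩⟩, hx⟩

/-- Two morphisms out of `G(φ)` agreeing on all charts are equal. -/
theorem hom_ext {Y : Scheme.{u}} (p q : (PCone.dom φ : Scheme.{u}) ⟶ Y)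
    (h : ∀ (d : ℕ) (f : A) (hd : 0 < d) (hf : f ∈ 𝒜 d),
      PCone.chart φ hf hd ≫ p = PCone.chart φ hf hd ≫ q) : p = q :=
  (cover φ).hom_ext _ _ fun f ↦ h f.1.1 (f.2 : A) f.1.2 f.2.2

end

/-- The local pieces of the morphism. -/
def loc {d : ℕ} {f : A} (hf : f ∈ 𝒜 d) (hd : 0 < d) :
    Spec (CommRingCat.of (HomogeneousLocalization.Away ℬ (φ f))) ⟶ Proj 𝒜 :=
  Spec.map (CommRingCat.ofHom (HomogeneousLocalization.Away.map φ f)) ≫ Proj.awayι 𝒜 f hf hd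

/-- Away maps commute with the maps `𝒜_(f) → 𝒜_(f g)`. -/
theorem map_comp_awayMap {f g x : A} {d e : ℕ} (hf : f ∈ 𝒜 d) (hg : g ∈ 𝒜 e) (hx : x = f * g)
    (hx' : φ x = φ f * φ g) :
    (HomogeneousLocalization.Away.map φ x).comp (HomogeneousLocalization.awayMap 𝒜 hg hx) =
      (HomogeneousLocalization.awayMap ℬ (Graded.map_mem φ hg) hx').comp (HomogeneousLocalization.Away.map φ f) := by
  ext a
  obtain ⟨n, a, ha, rfl⟩ := HomogeneousLocalization.Away.mk_surjective 𝒜 hf a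
  simp only [RingHom.comp_apply, HomogeneousLocalization.awayMap_mk,
    HomogeneousLocalization.Away.map_mk, map_mul, map_pow]

/-- The local pieces are compatible with `Spec ℬ_(φ x) → Spec ℬ_(φ f)`, `x = f g`. -/
@[reassoc]
theorem awayMap_loc {f g x : A} {d e : ℕ} (hf : f ∈ 𝒜 d) (hg : g ∈ 𝒜 e) (hd : 0 < d)
    (hx : x = f * g) (hx' : φ x = φ f * φ g) (hxm : x ∈ 𝒜 (d + e)) :
    Spec.map (CommRingCat.ofHom (HomogeneousLocalization.awayMap ℬ (Graded.map_mem φ hg) hx')) ≫ loc φ hf hd =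
      loc φ hxm (hd.trans_le (d.le_add_right e)) := by
  rw [loc, loc, ← Spec.map_comp_assoc, ← CommRingCat.ofHom_comp, ← map_comp_awayMap φ hf hg hx hx',
    CommRingCat.ofHom_comp, Spec.map_comp_assoc, Proj.SpecMap_awayMap_awayι]

/-- Compatibility of the local pieces on overlaps. -/
theorem loc_compat {f g : A} {d e : ℕ} (hf : f ∈ 𝒜 d) (hd : 0 < d) (hg : g ∈ 𝒜 e) (he : 0 < e)
    {T : Scheme.{u}} (a : T ⟶ Spec (CommRingCat.of (HomogeneousLocalization.Away ℬ (φ f))))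
    (b : T ⟶ Spec (CommRingCat.of (HomogeneousLocalization.Away ℬ (φ g))))
    (h : a ≫ PCone.chart φ hf hd = b ≫ PCone.chart φ hg he) :
    a ≫ loc φ hf hd = b ≫ loc φ hg he := by
  have h1 : a ≫ Proj.awayι ℬ (φ f) (Graded.map_mem φ hf) hd = b ≫ Proj.awayι ℬ (φ g) (Graded.map_mem φ hg) he := by
    rw [← chart_ι φ hf hd, ← chart_ι φ hg he, ← Category.assoc, h, Category.assoc]
  have hx : φ (f * g) = φ f * φ g := map_mul φ f g
  have hx2 : φ (f * g) = φ g * φ f := hx.trans (mul_comm _ _)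
  have hm1 : f * g ∈ 𝒜 (d + e) := SetLike.mul_mem_graded hf hg
  have hm2 : f * g ∈ 𝒜 (e + d) := by rw [add_comm]; exact hm1
  let u : T ⟶ Spec (CommRingCat.of (HomogeneousLocalization.Away ℬ (φ (f * g)))) :=
    pullback.lift a b h1 ≫ (Proj.pullbackAwayιIso ℬ (Graded.map_mem φ hf) hd (Graded.map_mem φ hg) he hx).hom
  have ha : a = u ≫ Spec.map (CommRingCat.ofHom
      (HomogeneousLocalization.awayMap ℬ (Graded.map_mem φ hg) hx)) := by
    rw [Category.assoc, Proj.pullbackAwayιIso_hom_SpecMap_awayMap_left, pullback.lift_fst]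
  have hb : b = u ≫ Spec.map (CommRingCat.ofHom
      (HomogeneousLocalization.awayMap ℬ (Graded.map_mem φ hf) hx2)) := by
    rw [Category.assoc, Proj.pullbackAwayιIso_hom_SpecMap_awayMap_right, pullback.lift_snd]
  have h3 : a ≫ loc φ hf hd = u ≫ loc φ hm1 (hd.trans_le (d.le_add_right e)) := by
    rw [← awayMap_loc φ hf hg hd rfl hx hm1, ← Category.assoc, ← ha]
  have h4 : b ≫ loc φ hg he = u ≫ loc φ hm2 (he.trans_le (e.le_add_right d)) := by
    rw [← awayMap_loc φ hg hf he (mul_comm _ _) hx2 hm2, ← Category.assoc, ← hb]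
  rw [h3, h4]
  congr 1

/-- The morphism `G(φ) ⟶ Proj 𝒜`. -/
def toProj : (PCone.dom φ : Scheme.{u}) ⟶ Proj 𝒜 :=
  (cover φ).glueMorphisms (fun f ↦ loc φ f.2.2 f.1.2)
    fun f g ↦ loc_compat φ f.2.2 f.1.2 g.2.2 g.1.2 _ _ pullback.condition

/-- The morphism `toProj φ` on the charts. -/
@[reassoc]
theorem chart_toProj {d : ℕ} {f : A} (hf : f ∈ 𝒜 d) (hd : 0 < d) :
    PCone.chart φ hf hd ≫ toProj φ =
      Spec.map (CommRingCat.ofHom (HomogeneousLocalization.Away.map φ f)) ≫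
        Proj.awayι 𝒜 f hf hd :=
  (cover φ).ι_glueMorphisms _ _ (⟨⟨d, hd⟩, ⟨f, hf⟩⟩ : Σ d : {d : ℕ // 0 < d}, 𝒜 d.1)

/-- Any morphism with the right charts is `toProj φ`. -/
theorem eq_toProj (p : (PCone.dom φ : Scheme.{u}) ⟶ Proj 𝒜)
    (hp : ∀ (d : ℕ) (f : A) (hd : 0 < d) (hf : f ∈ 𝒜 d),
        PCone.chart φ hf hd ≫ p =
          Spec.map (CommRingCat.ofHom (HomogeneousLocalization.Away.map φ f)) ≫
            Proj.awayι 𝒜 f hf hd) : p = toProj φ :=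
  hom_ext φ _ _ fun d f hd hf ↦ by rw [hp d f hd hf, chart_toProj]

end Groth.Agent.Ega2.H300.PConeMap
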